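import Cfsg.Agent.KFacts.Baby.Inst
import Cfsg.Agent.BabyComp.BaseTwo
import Cfsg.Agent.CTwoTab.BInst
import Cfsg.Agent.MonsterN.FusInst
import Cfsg.Agent.BpSpor.MBigEleven
import Cfsg.Agent.ConwayFacts.AutCo1

/-!
# S5719, the Baby Monster: the involutions of `2.²E₆(2)` are conjugate to involutions of `2^(1+22)` (helper861)

`conj_pp` : every involution `u ∈ MM Inst.M` of the model is conjugate to an element of `PP Inst.M`.
-/

set_option autoImplicit false
set_option maxRecDepth 100000

namespace Cfsg.Agent.H861.IFB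

open Subgroup Cfsg
open Cfsg.Agent.Co2Type.Quad

section abs

variable {G : Type*} [Group G] [Finite G]

/-- a Sylow subgroup of `G` between `Q` and `C` -/
theorem exists_sylow {p : ℕ} [Fact p.Prime] {C Q : Subgroup G} (hC : ¬ p ∣ C.index) (hQC : Q ≤ C) (hQ : IsPGroup p Q) :
    ∃ T : Sylow p G, (T : Subgroup G) ≤ C ∧ Q ≤ (T : Subgroup G) := by
  have h1 : IsPGroup p (Q.subgroupOf C) := hQ.of_equiv (subgroupOfEquivOfLe hQC).symm
  obtain ⟨S, hS⟩ := h1.exists_le_sylow
  have h2 : Nat.card ((S : Subgroup C).map C.subtype) = p ^ (Nat.card G).factorization p := by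
    rw [card_map_of_injective C.subtype_injective, S.card_eq_multiplicity, ← C.card_mul_index,
      Nat.factorization_mul Nat.card_pos.ne' Subgroup.index_ne_zero_of_finite, Finsupp.add_apply,
      Nat.factorization_eq_zero_of_not_dvd hC, add_zero]
  refine ⟨Sylow.ofCard _ h2, map_subtype_le _, ?_⟩
  intro x hx
  exact ⟨⟨x, hQC hx⟩, hS hx, rfl⟩

/-- a second involution with a centralizer of odd index is conjugate to `z` -/
theorem conj_z {Q : Subgroup G} {z : G} (h : Large Q z) (h2 : IsPGroup 2 Q)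
    (hodd : ¬ 2 ∣ (centralizer ({z} : Set G)).index) {w : G} (hw1 : w ≠ 1)
    (hw : ¬ 2 ∣ (centralizer ({w} : Set G)).index) : ∃ g : G, g * w * g⁻¹ = z := by
  have : Fact (Nat.Prime 2) := ⟨Nat.prime_two⟩
  obtain ⟨T, hTC, hQT⟩ := exists_sylow hodd (fun x hx => mem_centralizer_singleton_iff.2 (h.comm_z x hx)) h2
  obtain ⟨T', hTC', -⟩ := exists_sylow (Q := ⊥) hw bot_le (IsPGroup.of_bot)
  obtain ⟨g, hg⟩ := MulAction.exists_smul_eq G T' T
  refine ⟨g, ?_⟩
  have h3 : ∀ x ∈ (T : Subgroup G), g * w * g⁻¹ * x = x * (g * w * g⁻¹) := by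
    intro x hx
    rw [← hg, Sylow.coe_subgroup_smul, Subgroup.mem_pointwise_smul_iff_inv_smul_mem] at hx
    have h4 : g⁻¹ * x * g ∈ (T' : Subgroup G) := by
      have : (MulAut.conj g)⁻¹ • x = g⁻¹ * x * g := by
        rw [MulAut.smul_def, MulAut.conj_inv_apply]
      rwa [this] at hx
    have h5 := mem_centralizer_singleton_iff.1 (hTC' h4)
    calc g * w * g⁻¹ * x = g * (w * (g⁻¹ * x * g)) * g⁻¹ := by group
      _ = g * (g⁻¹ * x * g * w) * g⁻¹ := by rw [h5]
      _ = _ := by group
  have h6 : g * w * g⁻¹ ∈ Q := h.self _ (h3 z (hQT h.z_mem)) (fun x hx => h3 x (hQT hx))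
  rcases h.cent _ h6 (fun y hy => h3 y (hQT hy)) with h7 | h7
  · exfalso
    apply hw1
    calc w = g⁻¹ * (g * w * g⁻¹) * g := by group
      _ = 1 := by rw [h7]; group
  · exact h7

/-- a normal 2-subgroup of `C(z)` is in `Q` -/
theorem le_Q {Q : Subgroup G} {z : G} {K : Type*} [Group K] (hK : IsSimpleGroup K) {r : ℕ} (hr : r.Prime) (hr2 : r ≠ 2)
    (hrK : r ∣ Nat.card K)
    (π : centralizer ({z} : Set G) →* K) (hπ : Function.Surjective π) (hker : ∀ c, π c = 1 ↔ (c : G) ∈ Q)
    {R : Subgroup G} (hRz : R ≤ centralizer ({z} : Set G)) (hR : IsPGroup 2 R)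
    (hn : ∀ c ∈ centralizer ({z} : Set G), ∀ x ∈ R, c * x * c⁻¹ ∈ R) : R ≤ Q := by
  have : Fact (Nat.Prime 2) := ⟨Nat.prime_two⟩
  have hfK : Finite K := Finite.of_surjective π hπ
  set R' := R.subgroupOf (centralizer ({z} : Set G)) with hR'
  have hR'n : R'.Normal := ⟨fun x hx c => hn c c.2 x hx⟩
  have h1 : (R'.map π).Normal := hR'n.map π hπ
  have h2 : IsPGroup 2 (R'.map π) := (hR.of_equiv (subgroupOfEquivOfLe hRz).symm).map π
  rcases hK.eq_bot_or_eq_top_of_normal _ h1 with h3 | h3
  · intro x hx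
    rw [Subgroup.map_eq_bot_iff] at h3
    exact (hker ⟨x, hRz hx⟩).1 (h3 (show (⟨x, hRz hx⟩ : centralizer ({z} : Set G)) ∈ R' from hx))
  · exfalso
    rw [h3] at h2
    obtain ⟨n, hn⟩ := IsPGroup.iff_card.1 h2
    rw [card_top] at hn
    rw [hn] at hrK
    exact hr2 ((Nat.prime_dvd_prime_iff_eq hr Nat.prime_two).1 (hr.dvd_of_dvd_pow hrK))

end abs

section chart

open Cfsg.Agent.MonsterU Cfsg.Agent.MonsterU.Ch Cfsg.Agent.MonsterU.Lam2
open Cfsg.Spor (Co1)

variable {G : Type*} [Group G] {Q : Subgroup G} {z : G} {eta : G → L2}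
  {pi : Subgroup.centralizer ({z} : Set G) →* Co1}

theorem index_type (v : L2) (hv : IsType 2 v) : (MulAction.stabilizer Co1 v).index = 98280 := by
  rw [MulAction.index_stabilizer, ← ConwayFacts.NormL2.ncard_two]
  congr 1
  ext w
  constructor
  · rintro ⟨g, rfl⟩
    exact hv.smul1 g
  · intro hw
    obtain ⟨g, hg⟩ := IsType.trans (Or.inl rfl) hv hw
    exact ⟨(QuotientGroup.mk g : Co1), hg⟩

/-- the order of `C(z) ∩ C(x)`, `x ∈ Q` of type 2 -/
theorem card_inf [Finite G] (h : Chart Q z eta pi)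
    (hC : Nat.card (centralizer ({z} : Set G)) = 2 ^ 25 * 4157776806543360000) {x : G} (hx : x ∈ Q)
    (h2 : IsType 2 (eta x)) :
    2 ^ 24 * 42305421312000 ∣ Nat.card ((centralizer ({x} : Set G)).subgroupOf (centralizer ({z} : Set G))) := by
  set D := (MulAction.stabilizer Co1 (eta x)).comap pi with hD
  set E := (centralizer ({x} : Set G)).subgroupOf (centralizer ({z} : Set G)) with hE
  have hDi : D.index = 98280 := by
    rw [hD, Subgroup.index_comap_of_surjective _ h.pi_surj, index_type _ h2]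
  have hzz := h.large.z_sq
  have hxz := h.large.comm_z x hx
  have hDc : ∀ c ∈ D, (c : G) * x * (c : G)⁻¹ = x ∨ (c : G) * x * (c : G)⁻¹ = x * z := by
    intro c hc
    have h3 : pi c • eta x = eta x := hc
    rw [← h.eta_conj c x hx] at h3
    exact (h.eta_eq (h.large.conj_mem c (mem_centralizer_singleton_iff.1 c.2) x hx) hx).1 h3
  have hEc : ∀ c : centralizer ({z} : Set G), c ∈ E ↔ (c : G) * x * (c : G)⁻¹ = x := by
    intro c
    rw [hE, mem_subgroupOf, mem_centralizer_singleton_iff, mul_inv_eq_iff_eq_mul]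
  have hED : E ≤ D := by
    intro c hc
    rw [hEc] at hc
    show pi c • eta x = eta x
    rw [← h.eta_conj c x hx, hc]
  have hrel : E.relIndex D ∣ 2 := by
    by_cases hcase : D ≤ E
    · rw [Subgroup.relIndex_eq_one.2 hcase]
      exact one_dvd 2
    · rw [SetLike.not_le_iff_exists] at hcase
      obtain ⟨a, haD, haE⟩ := hcase
      have ha : (a : G) * x * (a : G)⁻¹ = x * z := (hDc a haD).resolve_left (fun h3 => haE ((hEc a).2 h3))
      refine dvd_of_eq ?_
      rw [Subgroup.relIndex, Subgroup.index_eq_two_iff]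
      refine ⟨⟨a, haD⟩, fun b => ?_⟩
      have hbz := mem_centralizer_singleton_iff.1 (b : centralizer ({z} : Set G)).2
      have h5 : (((b : centralizer ({z} : Set G)) * a : centralizer ({z} : Set G)) : G) * x *
          (((b : centralizer ({z} : Set G)) * a : centralizer ({z} : Set G)) : G)⁻¹ =
          ((b : centralizer ({z} : Set G)) : G) * x * ((b : centralizer ({z} : Set G)) : G)⁻¹ * z := by
        calc _ = ((b : centralizer ({z} : Set G)) : G) * ((a : G) * x * (a : G)⁻¹) *
              ((b : centralizer ({z} : Set G)) : G)⁻¹ := by push_cast; group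
          _ = ((b : centralizer ({z} : Set G)) : G) * x * (z * ((b : centralizer ({z} : Set G)) : G)⁻¹) := by
              rw [ha]; group
          _ = ((b : centralizer ({z} : Set G)) : G) * x * (((b : centralizer ({z} : Set G)) : G)⁻¹ * z) := by
              rw [show z * ((b : centralizer ({z} : Set G)) : G)⁻¹ = ((b : centralizer ({z} : Set G)) : G)⁻¹ * z by
                rw [eq_inv_mul_iff_mul_eq, ← mul_assoc, hbz, mul_inv_cancel_right]]
          _ = _ := by group
      show Xor (((b : centralizer ({z} : Set G)) * a) ∈ E) ((b : centralizer ({z} : Set G)) ∈ E)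
      rcases hDc b b.2 with h6 | h6
      · refine Or.inr ⟨(hEc b).2 h6, fun h7 => ?_⟩
        rw [hEc, h5, h6] at h7
        exact h.large.z_ne (mul_eq_left.1 h7)
      · refine Or.inl ⟨(hEc _).2 ?_, fun h7 => ?_⟩
        · rw [h5, h6, mul_assoc, hzz, mul_one]
        · rw [hEc, h6] at h7
          exact h.large.z_ne (mul_eq_left.1 h7)
  have h3 := Subgroup.relIndex_mul_index hED
  have h4 := E.card_mul_index
  rw [← h3, hDi, hC] at h4
  obtain ⟨m, hm⟩ := hrel
  refine ⟨m, ?_⟩
  have h5 : Nat.card E * (E.relIndex D * 98280) * m = 2 ^ 25 * 4157776806543360000 * m := by rw [h4]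
  have h6 : Nat.card E * (E.relIndex D * 98280) * m = Nat.card E * (E.relIndex D * m) * 98280 := by ring
  rw [h6, ← hm] at h5
  omega

end chart

end Cfsg.Agent.H861.IFB
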