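import Cfsg.Agent.H861.IF.BClsA

/-!
# S5719, the Baby Monster: the involutions of `2.²E₆(2)` are conjugate to involutions of `2^(1+22)`, II (helper861)

`conj_pp` : every involution `u ∈ MM Inst.M` of the model is conjugate to an element of `PP Inst.M`.
-/

set_option autoImplicit false
set_option maxRecDepth 100000

namespace Cfsg.Agent.H861.IFB

open Subgroup
open Cfsg Cfsg.Lie Cfsg.Agent.Bimonster Cfsg.Agent.BabyU Cfsg.Agent.TwoESix.Cover
open Cfsg.Agent.MonsterX.KSide Cfsg.Agent.MonsterX.KLift Cfsg.Agent.MonsterX.KModel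
open Cfsg.Agent.MonsterX.Model Cfsg.Agent.MonsterX.MainPack Cfsg.Agent.MonsterX.MainSimple
open Cfsg.Agent.MonsterX.MainBasic Cfsg.Agent.MonsterU.Assembly Cfsg.Agent.MonsterN Cfsg.Agent.MonsterN.Lit
open Cfsg.Agent.MonsterN.LitInst Cfsg.Agent.MonsterU.Lam2 Cfsg.Agent.MonsterU.TwoCls
open Cfsg.Agent.BabyComp Cfsg.Agent.BabyComp.Main Cfsg.Agent.BabyComp.BaseTwo Cfsg.Agent.R01.Lifts
open Cfsg.Agent.BpSpor.MBigModel (MG zz pi chart)
open Cfsg.Agent.BabyU.ClosModel (PP MM)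

/-- the group `2.B` -/
noncomputable abbrev BBm : Subgroup MG := BB Cfsg.Agent.MonsterX.KDone.K Cfsg.Agent.MonsterX.KLinkInst.x₀

/-- the central involution -/
noncomputable abbrev tbm : BBm := tb Cfsg.Agent.MonsterX.KDone.K Cfsg.Agent.MonsterX.KLinkInst.x₀

theorem card_dvd_map {H K : Type*} [Group H] [Finite H] [Group K] {θ : H →* K} {τ : H} (hθ : Ext θ τ) (E : Subgroup H) :
    Nat.card E ∣ 2 * Nat.card (E.map θ) := by
  classical
  have h2 := Subgroup.card_mul_index ((θ.domRestrict E).ker)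
  rw [Subgroup.index_ker, MonoidHom.domRestrict_range] at h2
  have h3 : Nat.card (θ.domRestrict E).ker ≤ 2 := by
    rw [← Fintype.card_bool, ← Nat.card_eq_fintype_card]
    refine Nat.card_le_card_of_injective (fun x : (θ.domRestrict E).ker => decide (((x : E) : H) = 1)) ?_
    intro x y hxy
    have hx := (hθ.ker ((x : E) : H)).1 x.2
    have hy := (hθ.ker ((y : E) : H)).1 y.2
    have h1 : (((x : E) : H) = 1) ↔ (((y : E) : H) = 1) := by simpa only [decide_eq_decide] using hxy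
    apply Subtype.ext
    apply Subtype.ext
    rcases hx with hx | hx
    · rw [hx, h1.1 hx]
    · rcases hy with hy | hy
      · rw [hy, h1.2 hy]
      · rw [hx, hy]
  have h4 : 0 < Nat.card (θ.domRestrict E).ker := Nat.card_pos
  have h5 : Nat.card (θ.domRestrict E).ker ∣ 2 := by
    rcases (show Nat.card (θ.domRestrict E).ker = 1 ∨ Nat.card (θ.domRestrict E).ker = 2 by omega) with h | h
    · rw [h]; exact one_dvd _
    · rw [h]
  rw [← h2]
  exact Nat.mul_dvd_mul_right h5 _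

theorem card_subgroupOf {G : Type*} [Group G] (H K : Subgroup G) :
    Nat.card (H.subgroupOf K) = Nat.card (K.subgroupOf H) := by
  rw [← Subgroup.inf_subgroupOf_right H K, ← Subgroup.inf_subgroupOf_left K H,
    Nat.card_congr (subgroupOfEquivOfLe (inf_le_right : H ⊓ K ≤ K)).toEquiv,
    Nat.card_congr (subgroupOfEquivOfLe (inf_le_left : H ⊓ K ≤ H)).toEquiv]

/-- **the image of `Q ∩ 2.B` is conjugate to a subgroup of `2^(1+22)`** -/
theorem lift_conj (e : Spor.BabyMonster ≃* BabyM.Inst.M.G) {q : BBm →* Spor.BabyMonster} (hq : Ext q tbm) :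
    ∃ g : BabyM.Inst.M.G, ∀ b : BBm, (b : MG) ∈ MonsterX.KDone.K.ι.range → g * e (q b) * g⁻¹ ∈ PP BabyM.Inst.M := by
  have hfM : Finite MG := BpSpor.MBigModel.finite
  have hfG : Finite BabyM.Inst.M.G := BabyM.Instance.all.finite_G
  set A0 := BabyM.Instance.all with hA0
  have hL := KFacts.Baby.Inst.large A0
  -- the homomorphism
  set θ : BBm →* BabyM.Inst.M.G := e.toMonoidHom.comp q with hθdef
  have hθ : Ext θ tbm := by
    refine ⟨e.surjective.comp hq.surj, hq.zz, hq.zne, ?_, hq.comm⟩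
    intro c
    rw [← hq.ker]
    exact e.map_eq_one_iff
  -- `z`
  have hx : MonsterX.KDone.K.ι MonsterX.KLinkInst.x₀ ∈ MonsterX.KDone.K.ι.range := ⟨_, rfl⟩
  have h2 : IsType 2 (LThreeMB.KChart.eta MonsterX.KDone.lft (MonsterX.KDone.K.ι MonsterX.KLinkInst.x₀)) := by
    rw [LThreeMB.KChart.eta_ι]
    exact (mem_Sh_iff MonsterX.KDone.lft _).1 MonsterX.KDone.lnk.x₀_mem
  have hzx : zz * MonsterX.KDone.K.ι MonsterX.KLinkInst.x₀ = MonsterX.KDone.K.ι MonsterX.KLinkInst.x₀ * zz :=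
    (chart.large.comm_z _ hx).symm
  set zb : BBm := ⟨zz, mem_centralizer_singleton_iff.2 hzx⟩ with hzb
  have hcard := card_inf chart BpSpor.MBigModel.card_cent_z hx h2
  rw [card_subgroupOf] at hcard
  set E : Subgroup BBm := (centralizer ({zz} : Set MG)).subgroupOf BBm with hE
  have hcE : 2 ^ 23 * 42305421312000 ∣ Nat.card (E.map θ) := by
    have h3 := hcard.trans (card_dvd_map hθ E)
    have h4 : 2 * (2 ^ 23 * 42305421312000) ∣ 2 * Nat.card (E.map θ) := by
      refine dvd_trans (dvd_of_eq ?_) h3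
      norm_num
    exact Nat.dvd_of_mul_dvd_mul_left (by norm_num) h4
  have hEz : E.map θ ≤ centralizer ({θ zb} : Set BabyM.Inst.M.G) := by
    rintro _ ⟨b, hb, rfl⟩
    rw [mem_centralizer_singleton_iff, ← map_mul, ← map_mul]
    congr 1
    exact Subtype.ext (mem_centralizer_singleton_iff.1 hb)
  have hw1 : θ zb ≠ 1 := by
    intro h
    rcases (hθ.ker zb).1 h with h3 | h3
    · exact chart.large.z_ne (congrArg Subtype.val h3)
    · have h4 : zz = MonsterX.KDone.K.ι MonsterX.KLinkInst.x₀ := congrArg Subtype.val h3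
      rw [← h4, chart.eta_z] at h2
      exact ConwayFacts.NormL2.ne_zero_of_type (Or.inl rfl) h2 rfl
  have hodd : ¬ 2 ∣ (centralizer ({ClosModel.zz A0} : Set BabyM.Inst.M.G)).index :=
    fun h => (Nat.not_even_iff_odd.2 (KFacts.Baby.Inst.odd_index A0)) (even_iff_two_dvd.2 h)
  have hcC : Nat.card (centralizer ({ClosModel.zz A0} : Set BabyM.Inst.M.G)) = 2 ^ 23 * 42305421312000 := by
    rw [Nat.card_congr (KFacts.Baby.Inst.eC A0).toEquiv, A0.grp.card_C]
  have hw : ¬ 2 ∣ (centralizer ({θ zb} : Set BabyM.Inst.M.G)).index := by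
    intro h
    have h3 := (hcE.trans (card_dvd_of_le hEz))
    obtain ⟨k, hk⟩ := h3
    have h4 := (centralizer ({θ zb} : Set BabyM.Inst.M.G)).card_mul_index
    have h5 := (centralizer ({ClosModel.zz A0} : Set BabyM.Inst.M.G)).card_mul_index
    rw [hcC] at h5
    rw [hk, ← h5, mul_assoc] at h4
    have h6 := Nat.eq_of_mul_eq_mul_left (by norm_num) h4
    apply hodd
    rw [← h6]
    exact h.mul_left k
  obtain ⟨g, hg⟩ := conj_z hL (ClosModel.two A0) hodd hw1 hw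
  refine ⟨g, ?_⟩
  -- `θ' = conj g ∘ θ`
  set θ' : BBm →* BabyM.Inst.M.G := (MulAut.conj g).toMonoidHom.comp θ with hθ'
  have hEC : E.map θ' = centralizer ({ClosModel.zz A0} : Set BabyM.Inst.M.G) := by
    have h3 : E.map θ' = (E.map θ).map (MulAut.conj g).toMonoidHom := (Subgroup.map_map E _ _).symm
    refine Subgroup.eq_of_le_of_card_ge ?_ ?_
    · rw [h3]
      rintro _ ⟨c, hc, rfl⟩
      have h4 := mem_centralizer_singleton_iff.1 (hEz hc)
      rw [mem_centralizer_singleton_iff, ← hg]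
      show g * c * g⁻¹ * (g * θ zb * g⁻¹) = g * θ zb * g⁻¹ * (g * c * g⁻¹)
      calc g * c * g⁻¹ * (g * θ zb * g⁻¹) = g * (c * θ zb) * g⁻¹ := by group
        _ = g * (θ zb * c) * g⁻¹ := by rw [h4]
        _ = _ := by group
    · rw [hcC, h3, card_map_of_injective (MulAut.conj g).injective]
      exact Nat.le_of_dvd Nat.card_pos hcE
  set R : Subgroup BBm := MonsterX.KDone.K.ι.range.subgroupOf BBm with hR
  have hRE : R ≤ E := by
    intro b hb
    show (b : MG) ∈ centralizer ({zz} : Set MG)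
    exact mem_centralizer_singleton_iff.2 (chart.large.comm_z _ hb)
  have hRp : IsPGroup 2 R := by
    refine IsPGroup.of_injective (IsPGroup.of_card (p := 2) (n := 25) chart.card_Q)
      ((BBm.subtype.comp R.subtype).codRestrict MonsterX.KDone.K.ι.range (fun b => b.2)) ?_
    intro a b hab
    apply Subtype.ext
    apply Subtype.ext
    exact congrArg (fun x : MonsterX.KDone.K.ι.range => (x : MG)) hab
  obtain ⟨π, hπs, hπ⟩ := KFacts.Baby.Inst.quot A0
  have hRQ : R.map θ' ≤ PP BabyM.Inst.M := by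
    refine le_Q A0.grp.simple (r := 23) (by norm_num) (by norm_num) (by rw [A0.grp.card]; norm_num) π hπs hπ ?_
      (hRp.map θ') ?_
    · rw [← hEC]
      exact Subgroup.map_mono hRE
    · intro c hc x hx
      rw [← hEC] at hc
      obtain ⟨b, hb, rfl⟩ := hc
      obtain ⟨r, hr, rfl⟩ := hx
      refine ⟨b * r * b⁻¹, ?_, by rw [map_mul, map_mul, map_inv]⟩
      exact chart.large.conj_mem (b : MG) (mem_centralizer_singleton_iff.1 hb) (r : MG) hr
  intro b hb
  exact hRQ ⟨b, hb, rfl⟩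

/-- the involutions of `2.B` -/
theorem list {k : BBm} (hkk : k * k = 1) (hk1 : k ≠ 1) (hkt : k ≠ tbm) :
    ∃ f : BBm, (f : MG) ∈ MonsterX.KDone.K.ι.range ∧ IsConj f k := by
  have T := MonsterU.TauInst.tauHyp (MonsterU.Final.cent MonsterX.InstanceFinal.mOrbit MonsterX.Instance.mTrans)
  have F := FusInst.hyp CTwoTab.BInst.all MonsterX.KDone.lnk MonsterX.KDone.lft T MonsterX.KDone.lnk.x₀_mem
  obtain ⟨p₁, p₂, p₃, p₄, C⟩ := FusF2.exists_conf MonsterX.KDone.lft MonsterX.KDone.lnk.x₀_mem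
  have hm : ∀ (p : _) (h : p * MonsterX.KLinkInst.x₀ = MonsterX.KLinkInst.x₀ * p),
      ((FusF2.elt MonsterX.KDone.K p h : BBm) : MG) ∈ MonsterX.KDone.K.ι.range := fun p h => ⟨p, rfl⟩
  have hR : ∀ a b : BBm, (a : MG) ∈ MonsterX.KDone.K.ι.range → (b : MG) ∈ MonsterX.KDone.K.ι.range →
      ((a * b : BBm) : MG) ∈ MonsterX.KDone.K.ι.range := fun a b ha hb => Subgroup.mul_mem _ ha hb
  rcases F.list C (F.c₁ C) (F.c₂ C) (F.c₃ C) k hkk hk1 hkt with h | h | h | h
  · exact ⟨_, hm _ _, h⟩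
  · exact ⟨_, hR _ _ (hm _ _) (hm _ _), h⟩
  · exact ⟨_, hR _ _ (hm _ _) (hR _ _ (hm _ _) (hm _ _)), h⟩
  · exact ⟨_, hR _ _ (hR _ _ (hm _ _) (hm _ _)) (hm _ _), h⟩

/-- **The involutions of `MM` are conjugate to elements of `PP`.** -/
theorem conj_pp {u : BabyM.Inst.M.G} (h2 : u * u = 1) (hM : u ∈ MM BabyM.Inst.M) :
    ∃ g : BabyM.Inst.M.G, g * u * g⁻¹ ∈ PP BabyM.Inst.M := by
  by_cases hu1 : u = 1
  · exact ⟨1, by rw [hu1]; simp⟩
  refine CTwoTab.BInst.elim ?_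
  intro K _ _ hK hF _ _ _ _ q y h π f₁ f₂ f₃ f₄ M₁' hq h10 DK Fc hz hcz hcd hL hc5 big hq5 hcard Bs' hr
  -- the isomorphism
  obtain ⟨g₀, hg₀⟩ := BM.StageW.exists_conj BabyM.Instance.all BabyM.Instance.ok Cfsg.Spor.BabyMonster.Gen.t1
  obtain ⟨c, hc⟩ := isConj_iff.1 hq5
  have hg : BM.KHAll.iso (PresentedGroup.of Spor.BabyMonster.Gen.t1 : Spor.BabyMonster) =
      g₀ * ClosModel.tt BabyM.Instance.all * g₀⁻¹ := (BM.KHAll.iso_gB _).trans hg₀
  let e := BM.KHAll.iso.trans (MulAut.conj (g₀⁻¹ * BM.KHAll.iso c))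
  have he : e (q (y 5)) = ClosModel.tt BabyM.Instance.all := by
    show (g₀⁻¹ * BM.KHAll.iso c) * BM.KHAll.iso (q (y 5)) * (g₀⁻¹ * BM.KHAll.iso c)⁻¹ = _
    have h1 : BM.KHAll.iso c * BM.KHAll.iso (q (y 5)) * (BM.KHAll.iso c)⁻¹ =
        g₀ * ClosModel.tt BabyM.Instance.all * g₀⁻¹ := by rw [← hg, ← hc, map_mul, map_mul, map_inv]
    calc (g₀⁻¹ * BM.KHAll.iso c) * BM.KHAll.iso (q (y 5)) * (g₀⁻¹ * BM.KHAll.iso c)⁻¹ =
        g₀⁻¹ * (BM.KHAll.iso c * BM.KHAll.iso (q (y 5)) * (BM.KHAll.iso c)⁻¹) * g₀ := by group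
      _ = ClosModel.tt BabyM.Instance.all := by rw [h1]; group
  have hex : ∃ g : BabyM.Inst.M.G, g * ClosModel.tt BabyM.Instance.all = ClosModel.tt BabyM.Instance.all * g ∧
      g ∉ MM BabyM.Inst.M := by
    obtain ⟨g, hg, h⟩ := BabyM.Instance.all.rep.neg
    refine ⟨⟨g, BabyM.Instance.all.C_le_G hg⟩, ?_, ?_⟩
    · exact Subtype.ext (BabyM.Instance.all.rep.t₀_comm g hg (Or.inr h))
    · intro hm
      have h1 : g BabyM.Inst.M.d₀ = BabyM.Inst.M.d₀ := hm
      exact ClosModel.ne_neg BabyM.Instance.all BabyM.Instance.all.d₀_mem (h1.symm.trans h)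
  have Bs : Base (q (y 5)) ((MM BabyM.Inst.M).comap e.toMonoidHom) := BaseB.base_of F8Inner.inner e he hex
  have hu' : e.symm u ∈ (MM BabyM.Inst.M).comap e.toMonoidHom := by
    show e (e.symm u) ∈ MM BabyM.Inst.M
    rw [e.apply_symm_apply]; exact hM
  obtain ⟨k, hk, hqk⟩ := M_le hq h10 big Bs _ hu'
  have hkk : k * k = 1 := by
    refine lift_sq (Cfsg.Agent.TwoESix.LeviG.rootFacts hK hF) (KeyInst.extra hF) (Cfsg.Agent.TwoESix.RootsInst.roots K hF)
      hq h10 DK hk ?_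
    rw [hqk, ← map_mul, h2, map_one]
  have hqk1 : q k ≠ 1 := by
    intro h1
    rw [hqk] at h1
    exact hu1 (e.symm.map_eq_one_iff.1 h1)
  obtain ⟨f, hf, hfk⟩ := list hkk (fun h1 => hqk1 (by rw [h1, map_one])) (fun h1 => hqk1 (by rw [h1, hq.mapz]))
  obtain ⟨g, hgg⟩ := lift_conj e hq
  obtain ⟨b, hb⟩ := isConj_iff.1 hfk.symm
  refine ⟨g * e (q b), ?_⟩
  have h3 := hgg f hf
  rw [← hb] at h3
  simp only [map_mul, map_inv, hqk, e.apply_symm_apply] at h3
  have h4 : g * e (q b) * u * (g * e (q b))⁻¹ = g * (e (q b) * u * (e (q b))⁻¹) * g⁻¹ := by group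
  rw [h4]
  exact h3

end Cfsg.Agent.H861.IFB
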